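import Cfsg.Agent.H50.F2S8

/-! CL3F slot S6: an element of order 7 on `𝔽₂^6`. -/

set_option autoImplicit false
set_option linter.unusedSectionVars false

namespace H50.F2

open Subgroup H53.F2 H91.CL

section

variable {W X : Type} [AddCommGroup W] [Finite W] [Group X] [Finite X] [DistribMulAction X W]

/-- The kernel of `1 + c + c ^ 3`. -/
def Kr (W : Type) [AddCommGroup W] [DistribMulAction X W] (c : X) : AddSubgroup W where
  carrier := {w | w + c • w + c ^ 3 • w = 0}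
  add_mem' := fun {a b} ha hb => by
    simp only [Set.mem_ofPred_eq, smul_add] at ha hb ⊢
    linear_combination (norm := abel) ha + hb
  zero_mem' := by simp
  neg_mem' := fun {a} ha => by
    simp only [Set.mem_ofPred_eq, smul_neg] at ha ⊢
    linear_combination (norm := abel) -ha

theorem mem_Kr {c : X} {w : W} : w ∈ Kr W c ↔ w + c • w + c ^ 3 • w = 0 := Iff.rfl

theorem Kr_conj {c : X} {w : W} (g : X) (h : w ∈ Kr W c) : g • w ∈ Kr W (g * c * g⁻¹) := by
  rw [mem_Kr] at h ⊢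
  rw [conj_pow]
  simp only [mul_smul, inv_smul_smul]
  rw [← smul_add, ← smul_add, h, smul_zero]

theorem Kr_comm {c g : X} {w : W} (hg : g * c = c * g) (h : w ∈ Kr W c) : g • w ∈ Kr W c := by
  have := Kr_conj g h
  rwa [hg, mul_inv_cancel_right] at this

theorem Kr_pow {c : X} {w : W} (k : ℕ) (h : w ∈ Kr W c) : c ^ k • w ∈ Kr W c :=
  Kr_comm ((Commute.refl c).pow_left k) h

/-- The recurrence on the kernel. -/
theorem Kr_rec {c : X} {w : W} (h : w ∈ Kr W c) (k : ℕ) :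
    c ^ k • w + c ^ (k + 1) • w + c ^ (k + 3) • w = 0 := by
  have := congrArg (c ^ k • ·) (mem_Kr.1 h)
  simpa only [smul_add, smul_zero, smul_smul, ← pow_add, ← pow_succ] using this

theorem inv_pow7 {c : X} (hc : c ^ 7 = 1) : c⁻¹ = c ^ 6 :=
  inv_eq_of_mul_eq_one_left (by rw [← pow_succ, hc])

theorem pow_red {c : X} (hc : c ^ 7 = 1) (k : ℕ) : c ^ (k + 7) = c ^ k := by
  rw [pow_add, hc, mul_one]

variable (two : ∀ w : W, w + w = 0)
include two

theorem Kr_sq {c : X} : Kr W c ≤ Kr W (c ^ 2) := fun w h => by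
  have h0 := Kr_rec h 0
  have h1 := Kr_rec h 1
  have h3 := Kr_rec h 3
  rw [mem_Kr, ← pow_mul]
  simp only [pow_zero, one_smul, Nat.reduceAdd, Nat.reduceMul] at h0 h1 h3 ⊢
  linear_combination (norm := abel) h0 + h1 + h3 - two (c ^ 1 • w) - two (c ^ 3 • w) -
    two (c ^ 4 • w)

theorem Kr_cases {c : X} (hc : c ^ 7 = 1) {k : ℕ} (h0 : 0 < k) (h7 : k < 7) :
    Kr W (c ^ k) ≤ Kr W c ∨ Kr W (c ^ k) ≤ Kr W c⁻¹ := by
  have s : ∀ a b : ℕ, c ^ (a * 2) = c ^ b → Kr W (c ^ a) ≤ Kr W (c ^ b) := fun a b e => by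
    rw [← e, pow_mul]; exact Kr_sq two
  have e4 := s 4 1 (pow_red hc 1)
  have e3 := s 3 6 rfl
  have e5 := s 5 3 (pow_red hc 3)
  have e2 := s 2 4 rfl
  rw [inv_pow7 hc]
  rw [pow_one] at e4
  interval_cases k
  · left; rw [pow_one]
  · exact Or.inl (e2.trans e4)
  · exact Or.inr e3
  · exact Or.inl e4
  · exact Or.inr (e5.trans e3)
  · exact Or.inr le_rfl

theorem e1_mem {c : X} (hc : c ^ 7 = 1) (w : W) :
    w + c • w + c ^ 2 • w + c ^ 4 • w ∈ Kr W c := by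
  rw [mem_Kr]
  simp only [smul_add, smul_smul, ← pow_add, ← pow_succ, ← pow_succ', ← pow_two, Nat.reduceAdd,
    hc, one_smul]
  linear_combination (norm := abel) two w + two (c • w) + two (c ^ 2 • w) + two (c ^ 3 • w) +
    two (c ^ 4 • w) + two (c ^ 5 • w)

theorem decomp {c : X} (hc : c ^ 7 = 1) (w : W) :
    ∃ a ∈ Fix W c, ∃ u ∈ Kr W c, ∃ v ∈ Kr W c⁻¹, w = a + u + v := by
  refine ⟨w + c • w + c ^ 2 • w + c ^ 3 • w + c ^ 4 • w + c ^ 5 • w + c ^ 6 • w, ?_, _,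
    e1_mem two hc w, _, e1_mem two (by rw [inv_pow, hc, inv_one]) w, ?_⟩
  · rw [mem_Fix]
    simp only [smul_add, smul_smul, ← pow_succ', ← pow_two, Nat.reduceAdd, hc, one_smul]
    abel
  · rw [inv_pow7 hc, ← pow_mul, ← pow_mul, show 6 * 2 = 5 + 7 from rfl,
      show 6 * 4 = 3 + 7 + 7 + 7 from rfl]
    simp only [pow_red hc]
    linear_combination (norm := abel) -two w - two (c • w) - two (c ^ 2 • w) - two (c ^ 3 • w) -
      two (c ^ 4 • w) - two (c ^ 5 • w) - two (c ^ 6 • w)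

variable {B : W →+ W →+ ZMod 2} (inv : ∀ (x : X) v w, B (x • v) (x • w) = B v w)
include inv

theorem perp0 {c : X} {u : W} (h : u ∈ Kr W c) (v : W) :
    B u (v + c⁻¹ • v + c⁻¹ ^ 3 • v) = 0 := by
  have e : ∀ g : X, B u (g⁻¹ • v) = B (g • u) v := fun g => by
    rw [← inv g, smul_inv_smul]
  rw [map_add, map_add, inv_pow, e, e, ← AddMonoidHom.add_apply, ← AddMonoidHom.add_apply,
    ← map_add, ← map_add, mem_Kr.1 h, map_zero, AddMonoidHom.zero_apply]

theorem perp_fix {c : X} {u a : W} (h : u ∈ Kr W c) (ha : c • a = a) : B u a = 0 := by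
  have h1 : c⁻¹ • a = a := by rw [inv_smul_eq_iff, ha]
  have := perp0 two inv h a
  rwa [pow_succ, pow_two, mul_smul, mul_smul, h1, h1, h1, two, zero_add] at this

theorem perp_Kr {c : X} (hc : c ^ 7 = 1) {u v : W} (h : u ∈ Kr W c) (hv : v ∈ Kr W c) :
    B u v = 0 := by
  have := perp0 two inv h (c ^ 6 • v)
  rw [inv_pow7 hc, smul_smul, smul_smul, ← pow_mul, ← pow_add, ← pow_add,
    show 6 + 6 = 5 + 7 from rfl, show 6 * 3 + 6 = 3 + 7 + 7 + 7 from rfl] at this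
  simp only [pow_red hc] at this
  have e : c ^ 6 • v + c ^ 5 • v + c ^ 3 • v = v := by
    have h0 := Kr_rec hv 0
    have h1 := Kr_rec hv 1
    have h2 := Kr_rec hv 2
    have h3 := Kr_rec hv 3
    have h4 := Kr_rec hv 4
    simp only [pow_zero, one_smul, Nat.reduceAdd, hc] at h0 h1 h2 h3 h4
    linear_combination (norm := abel) h3 + h4 - two (c ^ 4 • v) - two v
  rwa [e] at this

end

section

variable {W X : Type} [AddCommGroup W] [Finite W] [Group X] [Finite X] [DistribMulAction X W]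
  [FaithfulSMul X W] {B : W →+ W →+ ZMod 2} {Gd : Set W} {Y : Subgroup X} (hs : St B Gd Y)
include hs

theorem symmB (v w : W) : B v w = B w v := by
  have h := hs.alt (v + w)
  simp only [map_add, AddMonoidHom.add_apply, hs.alt, zero_add, add_zero] at h
  exact (CharTwo.add_eq_zero.1 h).symm

/-- A vector orthogonal to the three parts vanishes. -/
theorem zero_of_perp {c : X} (hc : c ^ 7 = 1) {w : W} (h0 : ∀ a, c • a = a → B w a = 0)
    (h1 : ∀ u ∈ Kr W c, B w u = 0) (h2 : ∀ v ∈ Kr W c⁻¹, B w v = 0) : w = 0 :=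
  hs.nd w fun x => by
    obtain ⟨a, ha, u, hu, v, hv, rfl⟩ := decomp hs.two hc x
    rw [symmB hs, map_add, map_add, h0 a ha, h1 u hu, h2 v hv]
    simp

theorem Kr_zero {c : X} (hc : c ^ 7 = 1) {w : W} (h : w ∈ Kr W c)
    (h2 : ∀ v ∈ Kr W c⁻¹, B w v = 0) : w = 0 :=
  zero_of_perp hs hc (fun _ ha => perp_fix hs.two hs.inv h ha)
    (fun _ hu => perp_Kr hs.two hs.inv hc h hu) h2

theorem Kr_disj {c : X} (hc : c ^ 7 = 1) {w : W} (h : w ∈ Kr W c) (h' : w ∈ Kr W c⁻¹) : w = 0 :=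
  Kr_zero hs hc h fun _ hv => perp_Kr hs.two hs.inv (by rw [inv_pow, hc, inv_one]) h' hv

theorem Kr_ge {c : X} (hc : c ^ 7 = 1) (h1 : c ≠ 1) : 8 ≤ Nat.card (Kr W c) := by
  have hc' : c⁻¹ ^ 7 = 1 := by rw [inv_pow, hc, inv_one]
  have hm : Nat.card (Kr W c) ≡ 1 [MOD 7] :=
    fix_mod_one (by norm_num) hc ((Kr W c : AddSubgroup W) : Set W) (AddSubgroup.zero_mem _)
      (fun w hw => Kr_comm rfl hw) fun w hw e => by
        have := mem_Kr.1 hw
        rwa [pow_succ, pow_two, mul_smul, mul_smul, e, e, e, hs.two, zero_add] at this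
  have hne : Nat.card (Kr W c) ≠ 1 := fun h => by
    have hb := AddSubgroup.eq_bot_of_card_eq _ h
    have hz : ∀ v ∈ Kr W c⁻¹, v = 0 := fun v hv => Kr_zero hs hc' hv fun u hu => by
      rw [inv_inv, hb, AddSubgroup.mem_bot] at hu
      rw [hu, map_zero]
    refine h1 (eq_one_of_fix (W := W) (top_le_iff.1 fun w _ => ?_))
    obtain ⟨a, ha, u, hu, v, hv, rfl⟩ := decomp hs.two hc w
    rw [hb, AddSubgroup.mem_bot] at hu
    rwa [hu, hz v hv, add_zero, add_zero]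
  unfold Nat.ModEq at hm
  omega

variable (hW : Nat.card W = 64)
include hW

theorem Kr_split {c : X} (hc : c ^ 7 = 1) (h1 : c ≠ 1) :
    Nat.card (Kr W c) = 8 ∧ ∀ w : W, ∃ u ∈ Kr W c, ∃ v ∈ Kr W c⁻¹, w = u + v := by
  have hc' : c⁻¹ ^ 7 = 1 := by rw [inv_pow, hc, inv_one]
  have hinj : Function.Injective fun p : Kr W c × Kr W c⁻¹ => p.1.1 + p.2.1 := by
    rintro ⟨u, v⟩ ⟨u', v'⟩ e
    have e0 : u.1 + v.1 = u'.1 + v'.1 := e
    have e' : u.1 - u'.1 = v'.1 - v.1 := by linear_combination (norm := abel) e0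
    have h0 : u.1 - u'.1 = 0 := Kr_disj hs hc (sub_mem u.2 u'.2) (e' ▸ sub_mem v'.2 v.2)
    exact Prod.ext (Subtype.ext (sub_eq_zero.1 h0)) (Subtype.ext (sub_eq_zero.1 (e' ▸ h0)).symm)
  have hle := Nat.card_le_card_of_injective _ hinj
  have ha := Kr_ge hs hc h1
  have hb := Kr_ge hs hc' (inv_ne_one.2 h1)
  rw [Nat.card_prod, hW] at hle
  have h8 : Nat.card (Kr W c) = 8 := by nlinarith
  have h8' : Nat.card (Kr W c⁻¹) = 8 := by nlinarith
  refine ⟨h8, fun w => ?_⟩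
  obtain ⟨⟨u, v⟩, e⟩ := ((Nat.bijective_iff_injective_and_card _).2
    ⟨hinj, by rw [Nat.card_prod, h8, h8', hW]⟩).2 w
  exact ⟨u, u.2, v, v.2, e.symm⟩

theorem fix_zero {c : X} (hc : c ^ 7 = 1) (h1 : c ≠ 1) {a : W} (ha : c • a = a) : a = 0 :=
  hs.nd a fun x => by
    obtain ⟨u, hu, v, hv, rfl⟩ := (Kr_split hs hW hc h1).2 x
    rw [map_add, AddMonoidHom.add_apply, perp_fix hs.two hs.inv hu ha,
      perp_fix hs.two hs.inv hv (by rw [inv_smul_eq_iff, ha]), add_zero]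

theorem Kr_orbit {c : X} (hc : c ^ 7 = 1) (h1 : c ≠ 1) {s t : W} (h : s ∈ Kr W c) (h0 : s ≠ 0)
    (ht : t ∈ Kr W c) (ht0 : t ≠ 0) : ∃ k : ℕ, k < 7 ∧ c ^ k • s = t := by
  have : Fact (Nat.Prime 7) := ⟨by norm_num⟩
  have ho : orderOf c = 7 := orderOf_eq_prime hc h1
  let f : Option (Fin 7) → Kr W c := fun o => o.elim 0 fun i => ⟨c ^ i.1 • s, Kr_pow _ h⟩
  have hinj : Function.Injective f := by
    have n0 : ∀ i : ℕ, c ^ i • s ≠ 0 := fun i e => h0 ((smul_eq_zero_iff_eq _).1 e)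
    rintro (_ | i) (_ | j) e
    · rfl
    · exact absurd (congrArg Subtype.val e).symm (n0 _)
    · exact absurd (congrArg Subtype.val e) (n0 _)
    · have e' : c ^ i.1 • s = c ^ j.1 • s := congrArg Subtype.val e
      by_contra hne
      refine h0 (fix_zero hs hW (c := (c ^ j.1)⁻¹ * c ^ i.1) ?_ ?_ ?_)
      · rw [((Commute.refl c).pow_pow _ _).inv_left.mul_pow, inv_pow, ← pow_mul, ← pow_mul,
          mul_comm j.1, mul_comm i.1, pow_mul, pow_mul, hc]
        simp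
      · intro h
        have := pow_injOn_Iio_orderOf (x := c) (by simpa [ho] using j.2) (by simpa [ho] using i.2)
          (inv_mul_eq_one.1 h)
        exact hne (congrArg some (Fin.ext this.symm))
      · rw [mul_smul, e', inv_smul_smul]
  obtain ⟨_ | i, e⟩ := ((Nat.bijective_iff_injective_and_card _).2
    ⟨hinj, by rw [(Kr_split hs hW hc h1).1]; simp⟩).2 ⟨t, ht⟩
  · exact absurd (congrArg Subtype.val e).symm ht0
  · exact ⟨i.1, i.2, congrArg Subtype.val e⟩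

theorem Kr_ex {c : X} (hc : c ^ 7 = 1) (h1 : c ≠ 1) : ∃ s ∈ Kr W c, s ≠ 0 :=
  ((Kr W c).bot_or_exists_ne_zero).resolve_left fun h => by
    have := (Kr_split hs hW hc h1).1
    rw [h, AddSubgroup.card_bot] at this
    omega

theorem comm_pow {c d : X} (hc : c ^ 7 = 1) (h1 : c ≠ 1) (hd : d ^ 7 = 1) (h : d * c = c * d) :
    ∃ k : ℕ, k < 7 ∧ c ^ k = d := by
  obtain ⟨s, h2, h0⟩ := Kr_ex hs hW hc h1
  obtain ⟨k, hk, e⟩ := Kr_orbit hs hW hc h1 h2 h0 (Kr_comm h h2)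
    fun e => h0 ((smul_eq_zero_iff_eq _).1 e)
  refine ⟨k, hk, ?_⟩
  by_contra hne
  refine h0 (fix_zero hs hW (c := d⁻¹ * c ^ k) ?_ (fun h => hne (inv_mul_eq_one.1 h).symm) ?_)
  · rw [(Commute.pow_right h k).inv_left.mul_pow, inv_pow, hd, ← pow_mul, mul_comm k, pow_mul, hc]
    simp
  · rw [mul_smul, e, inv_smul_smul]

theorem perp_mem {c : X} (hc : c ^ 7 = 1) (h1 : c ≠ 1) {w : W} (h : ∀ m ∈ Kr W c, B m w = 0) :
    w ∈ Kr W c := by
  obtain ⟨u, hu, v, hv, rfl⟩ := (Kr_split hs hW hc h1).2 w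
  have : v = 0 := Kr_zero hs (by rw [inv_pow, hc, inv_one]) hv fun m hm => by
    rw [inv_inv] at hm
    have := h m hm
    rwa [map_add, perp_Kr hs.two hs.inv hc hm hu, zero_add, symmB hs] at this
  rwa [this, add_zero]

theorem maxG {Q : W → ZMod 2} (hQ : Quad X B Gd Q) {c : X} (hc : c ^ 7 = 1) (h1 : c ≠ 1) :
    MaxG B Gd (Kr W c) where
  gd m hm := by
    have e : m + c • m = c ^ 3 • m := by
      linear_combination (norm := abel) mem_Kr.1 hm - hs.two (c ^ 3 • m)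
    have := hQ.add m (c • m)
    rw [e, hQ.inv, hQ.inv, perp_Kr hs.two hs.inv hc hm (Kr_comm rfl hm), CharTwo.add_self_eq_zero,
      add_zero] at this
    exact (hQ.gd m).2 this
  iso m hm m' hm' := perp_Kr hs.two hs.inv hc hm hm'
  max w _ h := perp_mem hs hW hc h1 h

end

theorem jobS6 : JobS6 := by
  intro hMN W X _ _ _ _ _ _ B Gd Y hs Q hQ hW hG
  obtain ⟨l, R, hl, hRY, hR, hn, hab, hp, hT⟩ := hMN W X B Gd Y hs (by omega)
  have hQ0 : Q 0 = 0 := by
    have := hQ.add 0 0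
    simpa using this
  have hU : Nat.card (Set.univ : Set W) = 64 := by
    rw [Nat.card_congr (Equiv.Set.univ W), hW]
  obtain rfl : l = 7 := by
    have h1 : 64 ≡ 1 [MOD l] := hU ▸ hT _ trivial fun _ _ _ _ => trivial
    have h2 : 36 ≡ 1 [MOD l] := hG ▸ hT _ ((hQ.gd 0).2 hQ0) fun y _ w hw => by
      rw [hQ.gd] at hw ⊢; rw [hQ.inv, hw]
    have d1 : l ∣ 63 := (Nat.modEq_iff_dvd' (by norm_num)).1 h1.symm
    have d2 : l ∣ 35 := (Nat.modEq_iff_dvd' (by norm_num)).1 h2.symm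
    exact (Nat.prime_dvd_prime_iff_eq hl (by norm_num)).1 (Nat.dvd_gcd d1 d2)
  obtain ⟨c, hcR, h1⟩ := (R.bot_or_exists_ne_one).resolve_left hR
  have hc := hp c hcR
  have hc' : c⁻¹ ^ 7 = 1 := by rw [inv_pow, hc, inv_one]
  have h1' : c⁻¹ ≠ 1 := inv_ne_one.2 h1
  -- every element of `X` maps the kernel into one of the two kernels
  have hX : ∀ x : X, (∀ w ∈ Kr W c, x • w ∈ Kr W c) ∨ ∀ w ∈ Kr W c, x • w ∈ Kr W c⁻¹ := by
    intro x
    obtain ⟨Z, hF, hZ⟩ := hs.col _ (maxG hs hW hQ hc h1) ∅ (by simp)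
    obtain ⟨y, hy, hz⟩ := hF x
    have hm := hn y hy c hcR
    obtain ⟨k, hk, e⟩ := comm_pow hs hW hc h1 (hp _ hm) (hab _ hm _ hcR)
    have hk0 : 0 < k := Nat.pos_of_ne_zero fun h => h1 (by simpa [h] using e.symm)
    have key : ∀ w ∈ Kr W c, x • w ∈ Kr W (c ^ k) := fun w hw => by
      have := Kr_conj y ((hZ _ hz).1 w hw)
      rwa [← e, smul_smul, mul_inv_cancel_left] at this
    exact (Kr_cases hs.two hc hk0 hk).imp (fun h w hw => h (key w hw)) fun h w hw => h (key w hw)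
  obtain ⟨s, hsK, hs0⟩ := Kr_ex hs hW hc h1
  let S : Set W := {s, c • s, c ^ 2 • s}
  have hS : ∀ v ∈ S, v ∈ Kr W c := by
    rintro v (rfl | rfl | rfl)
    exacts [hsK, Kr_comm rfl hsK, Kr_pow 2 hsK]
  obtain ⟨Z, hF, hZ⟩ := hs.col _ (maxG hs hW hQ hc' h1') S fun v hv w hw h =>
    sub_eq_zero.1 (Kr_disj hs hc (sub_mem (hS v hv) (hS w hw))
      (perp_mem hs hW hc' h1' fun m hm => by rw [map_sub, h m hm, sub_self]))
  have hK : ∀ z ∈ Z, ∀ w ∈ Kr W c, z • w ∈ Kr W c := fun z hz =>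
    (hX z).resolve_right fun h => by
      obtain ⟨u, hu, v, hv, e⟩ := (Kr_split hs hW hc h1).2 (z⁻¹ • s)
      refine hs0 (Kr_disj hs hc hsK ?_)
      rw [inv_smul_eq_iff.1 e, smul_add]
      exact add_mem (h u hu) ((hZ z hz).1 v hv)
  have hZS : ∀ z : Z, ∀ w ∈ S, z • w ∈ S := fun z w hw => by
    obtain ⟨w', hw', e⟩ := (hZ z.1 z.2).2.1 w hw
    have := sub_eq_zero.1 (Kr_disj hs hc (sub_mem (hK z.1 z.2 w (hS w hw)) (hS w' hw')) e)
    exact (show z • w = w' from this) ▸ hw'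
  letI := resAct S hZS
  have hinj : Function.Injective (MulAction.toPermHom Z S) := by
    rw [injective_iff_map_eq_one]
    intro z hz
    have f : ∀ w ∈ S, z.1 • w = w := fun w hw => congrArg Subtype.val (congrArg (· ⟨w, hw⟩) hz)
    have fk : ∀ k : ℕ, c ^ k • s ∈ Fix W z.1 ∧ c ^ (k + 1) • s ∈ Fix W z.1 ∧
        c ^ (k + 2) • s ∈ Fix W z.1 := by
      intro k
      induction k with
      | zero =>
        exact ⟨by simpa [mem_Fix] using f s (by simp [S]),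
          by simpa [mem_Fix] using f (c • s) (by simp [S]),
          f _ (by simp [S])⟩
      | succ k ih =>
        refine ⟨ih.2.1, ih.2.2, ?_⟩
        have e : c ^ (k + 1 + 2) • s = c ^ k • s + c ^ (k + 1) • s := by
          linear_combination (norm := abel) Kr_rec hsK k - hs.two (c ^ k • s) -
            hs.two (c ^ (k + 1) • s)
        rw [e]
        exact add_mem ih.1 ih.2.1
    have f1 : ∀ t ∈ Kr W c, z.1 • t = t := fun t ht => by
      by_cases h0 : t = 0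
      · rw [h0, smul_zero]
      · obtain ⟨k, -, rfl⟩ := Kr_orbit hs hW hc h1 hsK hs0 ht h0
        exact (fk k).1
    have f2 : ∀ t ∈ Kr W c⁻¹, z.1 • t = t := fun t ht =>
      sub_eq_zero.1 (Kr_zero hs hc' (sub_mem ((hZ z.1 z.2).1 t ht) ht) fun v hv => by
        rw [inv_inv] at hv
        rw [map_sub, AddMonoidHom.sub_apply, ← hs.inv z.1 t v, f1 v hv, sub_self])
    refine Subtype.ext (eq_one_of_fix (W := W) (top_le_iff.1 fun w _ => ?_))
    obtain ⟨u, hu, v, hv, rfl⟩ := (Kr_split hs hW hc h1).2 w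
    exact add_mem (f1 u hu) (f2 v hv)
  have hle := Nat.card_le_card_of_injective _ hinj
  have h3 : Nat.card S ≤ 3 := (Set.ncard_insert_le _ _).trans
    (Nat.succ_le_succ ((Set.ncard_insert_le _ _).trans (by simp)))
  rw [Nat.card_perm] at hle
  exact (Nat.le_of_dvd Nat.card_pos hF.index_dvd).trans
    (hle.trans (Nat.factorial_le h3))

end H50.F2
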