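import Cfsg.Agent.H53.F2Spec

/-! CL3F slot S8: an element of order 17 on `𝔽₂^8`. -/

set_option autoImplicit false
set_option linter.unusedSectionVars false

namespace H50.F2

open Subgroup H53.F2 H91.CL

section kit

variable {W X : Type} [AddCommGroup W] [Finite W] [Group X] [Finite X] [DistribMulAction X W]

/-- The fixed vectors of `g`. -/
def Fix (W : Type) [AddCommGroup W] [DistribMulAction X W] (g : X) : AddSubgroup W where
  carrier := {w | g • w = w}
  add_mem' := fun {a b} ha hb => by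
    simp only [Set.mem_ofPred_eq] at ha hb ⊢
    rw [smul_add, ha, hb]
  zero_mem' := smul_zero g
  neg_mem' := fun {a} ha => by
    simp only [Set.mem_ofPred_eq] at ha ⊢
    rw [smul_neg, ha]

theorem mem_Fix {g : X} {w : W} : w ∈ Fix W g ↔ g • w = w := Iff.rfl

theorem fix_mod {l : ℕ} (hl : l.Prime) {c : X} (hc : c ^ l = 1) (T : Set W)
    (hT : ∀ w ∈ T, c • w ∈ T) : Nat.card T ≡ Nat.card {w : T // c • w.1 = w.1} [MOD l] := by
  classical
  have := Fintype.ofFinite T
  have : Fact l.Prime := ⟨hl⟩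
  let f : Function.End T := fun w => ⟨c • w.1, hT _ w.2⟩
  have hk : ∀ (k : ℕ) (w : T), ((f ^ k) w).1 = c ^ k • w.1 := by
    intro k
    induction k with
    | zero => intro w; simp [Function.End.one_def]
    | succ k ih =>
      intro w
      rw [pow_succ, pow_succ, mul_smul]
      exact ih (f w)
  have hf : f ^ l ^ 1 = 1 := by
    funext w
    apply Subtype.ext
    rw [hk, pow_one, hc, one_smul]
    rfl
  have h := Equiv.Perm.card_fixedPoints_modEq (f := f) hf
  rw [← Nat.card_eq_fintype_card, ← Nat.card_eq_fintype_card] at h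
  refine h.trans ?_
  rw [Nat.card_congr (Equiv.subtypeEquivRight (p := fun w : T => w ∈ f.fixedPoints)
    (q := fun w : T => c • w.1 = w.1) fun w => Subtype.ext_iff)]

/-- If `c` fixes only `0` in `T`, then `|T| ≡ 1`. -/
theorem fix_mod_one {l : ℕ} (hl : l.Prime) {c : X} (hc : c ^ l = 1) (T : Set W) (h0 : 0 ∈ T)
    (hT : ∀ w ∈ T, c • w ∈ T) (hf : ∀ w ∈ T, c • w = w → w = 0) : Nat.card T ≡ 1 [MOD l] := by
  refine (fix_mod hl hc T hT).trans ?_
  have : Nat.card {w : T // c • w.1 = w.1} = 1 := by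
    rw [Nat.card_eq_one_iff_exists]
    exact ⟨⟨⟨0, h0⟩, smul_zero c⟩, fun w => Subtype.ext (Subtype.ext (hf _ w.1.2 w.2))⟩
  rw [this]

theorem fix_mod_univ {l : ℕ} (hl : l.Prime) {c : X} (hc : c ^ l = 1) :
    Nat.card W ≡ Nat.card (Fix W c) [MOD l] := by
  have h := fix_mod hl hc (Set.univ : Set W) fun _ _ => trivial
  rw [Nat.card_congr (Equiv.Set.univ W)] at h
  refine h.trans ?_
  rw [Nat.card_congr ((Equiv.Set.univ W).subtypeEquiv (p := fun w => c • w.1 = w.1)
    (q := fun w => w ∈ Fix W c) fun w => Iff.rfl)]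

theorem eq_one_of_fix [FaithfulSMul X W] {g : X} (h : Fix W g = ⊤) : g = 1 :=
  eq_of_smul_eq_smul (α := W) fun w => by
    rw [one_smul]; exact mem_Fix.1 (h ▸ AddSubgroup.mem_top w)

/-- Conjugation by an element of order prime to `l - 1` fixes an element of order `l`. -/
theorem comm_of_conj {l r k : ℕ} (hl : l.Prime) {c y : X} (hc : orderOf c = l) (hy : y ^ r = 1)
    (hr : r.Coprime (l - 1)) (hk : y * c * y⁻¹ = c ^ k) : y * c = c * y := by
  have : Fact l.Prime := ⟨hl⟩
  have h1 : ∀ n : ℕ, y ^ n * c * (y ^ n)⁻¹ = c ^ k ^ n := by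
    intro n
    induction n with
    | zero => simp
    | succ n ih =>
      rw [pow_succ' y, pow_succ k, mul_comm (k ^ n), pow_mul, ← hk, conj_pow, ← ih]
      group
  have h2 : (k : ZMod l) ^ r = 1 := by
    have h := h1 r
    rw [hy, one_mul, inv_one, mul_one] at h
    have h' : c ^ 1 = c ^ k ^ r := by rw [pow_one]; exact h
    rw [pow_eq_pow_iff_modEq, hc, ← ZMod.natCast_eq_natCast_iff] at h'
    simpa using h'.symm
  have h0 : (k : ZMod l) ≠ 0 := by
    intro h
    rcases Nat.eq_zero_or_pos r with rfl | hr0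
    · have h1' : l - 1 = 1 := by simpa using hr
      have hl2 : l = 2 := by omega
      rw [ZMod.natCast_eq_zero_iff, ← hc] at h
      have h3 : y * c * y⁻¹ = 1 := by rw [hk]; exact orderOf_dvd_iff_pow_eq_one.1 h
      have h4 : c = 1 := by simpa using h3
      rw [h4, orderOf_one] at hc
      omega
    · rw [h, zero_pow hr0.ne'] at h2
      exact zero_ne_one h2
  have h3 : (k : ZMod l) = 1 :=
    (pow_eq_one_iff_of_coprime hr).1 ⟨h2, ZMod.pow_card_sub_one_eq_one h0⟩
  have h4 : c ^ k = c ^ 1 := by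
    rw [pow_eq_pow_iff_modEq, hc, ← ZMod.natCast_eq_natCast_iff, h3, Nat.cast_one]
  rw [h4, pow_one] at hk
  exact mul_inv_eq_iff_eq_mul.1 hk

end kit

theorem sub256 {W : Type} [AddCommGroup W] [Finite W] (hW : Nat.card W = 256) (U : AddSubgroup W)
    (h : Nat.card U ≡ 1 [MOD 17]) : U = ⊥ ∨ U = ⊤ := by
  have hd : Nat.card U ∣ 2 ^ 8 := by
    have := AddSubgroup.card_addSubgroup_dvd_card U
    rwa [hW] at this
  obtain ⟨k, hk, e⟩ := (Nat.dvd_prime_pow Nat.prime_two).1 hd
  rw [e] at h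
  interval_cases k
  · exact Or.inl (AddSubgroup.eq_bot_of_card_eq U e)
  all_goals first
    | exact absurd h (by decide)
    | exact Or.inr (AddSubgroup.eq_top_of_card_eq U (by rw [e, hW]; rfl))

theorem jobS8 : JobS8 := by
  intro hMN W X _ _ _ _ _ _ B Gd Y hs Q hQ hW hG r hr hrY
  obtain ⟨l, R, hl, hRY, hR, hn, hab, hp, hT⟩ := hMN W X B Gd Y hs (by omega)
  have hQ0 : Q 0 = 0 := by
    have := hQ.add 0 0
    simpa using this
  have g0 : (0 : W) ∈ Gd := (hQ.gd 0).2 hQ0
  have ginv : ∀ (x : X), ∀ w ∈ Gd, x • w ∈ Gd := fun x w hw => by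
    rw [hQ.gd] at hw ⊢; rw [hQ.inv, hw]
  have h17 : ∀ p : ℕ, p.Prime → 256 ≡ 1 [MOD p] → 120 ≡ 1 [MOD p] → p = 17 := by
    intro p hp h1 h2
    have d1 : p ∣ 255 := (Nat.modEq_iff_dvd' (by norm_num)).1 h1.symm
    have d2 : p ∣ 119 := (Nat.modEq_iff_dvd' (by norm_num)).1 h2.symm
    exact (Nat.prime_dvd_prime_iff_eq hp (by norm_num)).1 (Nat.dvd_gcd d1 d2)
  have hU : Nat.card (Set.univ : Set W) = 256 := by
    rw [Nat.card_congr (Equiv.Set.univ W), hW]
  obtain rfl : l = 17 := h17 l hl (hU ▸ hT _ trivial fun _ _ _ _ => trivial)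
    (hG ▸ hT _ g0 fun y _ => ginv y)
  have hfix : ∀ c : X, c ^ 17 = 1 → c ≠ 1 → Fix W c = ⊥ := fun c hc h1 =>
    (sub256 hW _ ((fix_mod_univ hl hc).symm.trans (by rw [hW]; decide))).resolve_right
      fun h => h1 (eq_one_of_fix h)
  obtain ⟨c, hcR, hc1⟩ := (R.bot_or_exists_ne_one).resolve_left hR
  have : Fact (Nat.Prime 17) := ⟨hl⟩
  have hoc : orderOf c = 17 := orderOf_eq_prime (hp c hcR) hc1
  have hRc : zpowers c = R := by
    have hP : IsPGroup 17 R := fun g => ⟨1, Subtype.ext (by simpa using hp g.1 g.2)⟩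
    obtain ⟨k, hk⟩ := IsPGroup.iff_card.1 hP
    have : Nontrivial W := Finite.one_lt_card_iff_nontrivial.1 (by omega)
    obtain ⟨w, hw⟩ := exists_ne (0 : W)
    have hinj : Function.Injective fun d : R => d.1 • w := by
      intro d e hde
      by_contra hne
      have h1 : e.1⁻¹ * d.1 ≠ 1 := fun h => hne (Subtype.ext (inv_mul_eq_one.1 h).symm)
      have h2 := hfix _ (hp _ (mul_mem (inv_mem e.2) d.2)) h1
      have h3 : w ∈ Fix W (e.1⁻¹ * d.1) := by
        rw [mem_Fix, mul_smul, inv_smul_eq_iff]; exact hde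
      rw [h2] at h3
      exact hw h3
    have hle := Nat.card_le_card_of_injective _ hinj
    rw [hk, hW] at hle
    have hk1 : k ≤ 1 := by
      by_contra h
      have := Nat.pow_le_pow_right (show 0 < 17 by norm_num) (show 2 ≤ k by omega)
      omega
    refine eq_of_le_of_card_ge (zpowers_le.2 hcR) ?_
    rw [hk, Nat.card_zpowers, hoc]
    interval_cases k <;> norm_num
  by_contra hne
  obtain ⟨h2, h17'⟩ := not_or.1 hne
  have : Fact r.Prime := ⟨hr⟩
  obtain ⟨y, hy⟩ := exists_prime_orderOf_dvd_card' r hrY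
  have hyr : y.1 ^ r = 1 := by
    rw [← hy]; exact congrArg Subtype.val (pow_orderOf_eq_one y)
  have hy1 : y.1 ≠ 1 := fun h => by
    rw [show y = 1 from Subtype.ext h, orderOf_one] at hy
    exact hr.one_lt.ne hy
  have hm : y.1 * c * y.1⁻¹ ∈ zpowers c := hRc ▸ hn y.1 y.2 c hcR
  obtain ⟨k, hk⟩ := mem_powers_iff_mem_zpowers.2 hm
  have hco : r.Coprime (17 - 1) :=
    Nat.Coprime.pow_right 4 ((Nat.coprime_primes hr Nat.prime_two).2 h2)
  have hcomm := comm_of_conj hl hoc hyr hco hk.symm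
  have hfy : Fix W y.1 = ⊥ := by
    refine (sub256 hW _ ?_).resolve_right fun h => hy1 (eq_one_of_fix h)
    refine fix_mod_one hl (hp c hcR) ((Fix W y.1 : AddSubgroup W) : Set W)
      (AddSubgroup.zero_mem _) ?_ ?_
    · intro w hw
      change y.1 • c • w = c • w
      rw [← mul_smul, hcomm, mul_smul, mem_Fix.1 hw]
    · intro w _ hw
      have : w ∈ Fix W c := hw
      rwa [hfix c (hp c hcR) hc1] at this
  have hz : ∀ w : W, y.1 • w = w → w = 0 := fun w hw => by
    have : w ∈ Fix W y.1 := hw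
    rwa [hfy] at this
  exact h17' (h17 r hr (hU ▸ fix_mod_one hr hyr _ trivial (fun _ _ => trivial) fun w _ => hz w)
    (hG ▸ fix_mod_one hr hyr _ g0 (ginv _) fun w _ => hz w))

end H50.F2
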